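import Cfsg.Agent.Lib.FsV.O2
import Cfsg.Agent.Lib.FsV.Tw

set_option autoImplicit false
set_option linter.unusedSectionVars false

namespace CfsgLib.FsV

open Subgroup CfsgLib.Tech CfsgLib.FsU

universe u

variable {G : Type u} [Group G] [Finite G] {p r : ℕ} {X : Set G} {H K M M' N : Subgroup G}
  {x y z g t u v : G}

/-- the `p`-part of an element outside `N` is a point -/
theorem FS.pt_of_line (h : FS p r X) (hx : x ∈ X) (hR : IsPGroup r N) (hn : x ∈ NN N)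
    (hg : g ∈ N ⊔ zpowers x) (hg' : g ∉ N) : ∃ a : ℕ, g ^ r ^ a ∈ X := by
  have : Fact p.Prime := ⟨h.pp⟩
  have hx1 : x ^ p ^ 1 = 1 := by rw [pow_one, h.pow_eq_one hx]
  have hS : IsSylowIn p (zpowers x) (N ⊔ zpowers x) := by
    refine isSylowIn_of_maximal (isPGroup_zpowers_of_pow hx1) le_sup_right fun T hT h1 h2 g hg => ?_
    obtain ⟨n, hn', k, e⟩ := ba_mem_sup hn (h2 hg)
    have h3 : n ∈ T := by
      have := T.mul_mem hg (T.inv_mem (T.pow_mem (h1 (mem_zpowers x)) k))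
      rwa [e, mul_inv_cancel_right] at this
    obtain ⟨a, ha⟩ := isPGroup_iff_mem.1 hT n h3
    obtain ⟨b, hb⟩ := isPGroup_iff_mem.1 hR n hn'
    rw [e, ba_eq_one h.pp h.rp h.rne ha hb, one_mul]
    exact pow_mem (mem_zpowers x) k
  obtain ⟨n, hn', k, e1⟩ := ba_mem_sup hn hg
  have h1 := ba_pow ((NN N).pow_mem hn k) hn' p
  rw [← pow_mul, mul_comm k p, pow_mul, h.pow_eq_one hx, one_pow, inv_one, mul_one, ← e1] at h1
  obtain ⟨a, ha⟩ := isPGroup_iff_mem.1 hR _ h1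
  obtain ⟨c, -, e⟩ := hS.exists_conj_mem (pow_mem hg (r ^ a)) (isPGroup_zpowers_of_pow (k := 1) (by
    rw [pow_one, ← pow_mul, mul_comm, pow_mul, ha]))
  refine ⟨a, ?_⟩
  have := h.conj _ (h.pw x hx _ e fun e => hg' (h.relt_mem hx hn hg ⟨a, conj_eq_one_iff.1 e⟩)) c⁻¹
  simpa [mul_assoc] using this

/-- an element centralizing one member centralizes all members it normalizes -/
theorem FS.comm_of_fix (h : FS p r X) (hx : x ∈ X) (hy : y ∈ X) (e : t * x = x * t)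
    (e' : t * y * t⁻¹ ∈ zpowers y) : t * y = y * t := by
  obtain ⟨u, hu⟩ := h.exists_conj hx hy
  have e1 : t * x * t⁻¹ = x := by rw [e, mul_inv_cancel_right]
  have z := h.zp_eq (h.conj x hx u) hu (h.ne_one hy)
  have n : t ∈ NN (zpowers (u * x * u⁻¹)) := z ▸ (h.mem_NN hy).2 e'
  have := h.act_eq (g := u) (s := t) hx (by rw [e1]; exact mem_zpowers x) (by
    have := (h.mem_NN (h.conj x hx u)).1 n
    rw [← cj_zpowers, mem_cj] at this
    convert this using 1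
    group)
  rw [e1] at this
  have c : u * x * u⁻¹ ∈ C1 t := mem_C1.2 (by
    calc u * x * u⁻¹ * t = u * (u⁻¹ * t * u * x * (u⁻¹ * t * u)⁻¹) * u⁻¹ * t := by rw [this]
      _ = _ := by group)
  exact (mem_C1.1 (zpowers_le.2 c hu)).symm

theorem FS.not_inv (h : FS p r X) (hy : y ∈ X) (e : t * y = y * t) : t * y * t⁻¹ ≠ y⁻¹ := fun e' => by
  rw [e, mul_inv_cancel_right, eq_inv_iff_mul_eq_one, ← sq, ← orderOf_dvd_iff_pow_eq_one, h.ord y hy] at e'
  exact h.p2 ((Nat.prime_dvd_prime_iff_eq h.pp Nat.prime_two).1 e')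

/-- an involution centralizing a point preserves the orientation -/
theorem FS.ao (h : FS p r X) (ht : t * t = 1) (hx : x ∈ X) (e : t * x = x * t) (hz : z ∈ X) :
    Ori r z (t * z * t⁻¹) := by
  obtain ⟨y, hy, m, m', o⟩ := h.ex' hz (h.conj z hz t)
  have hg : z⁻¹ * (t * z * t⁻¹) ∈ RR z y ⊔ zpowers z :=
    mul_mem (inv_mem (mem_sup_right (mem_zpowers z))) (zpowers_le.2 (mem_line z y) m')
  refine Ori.of_mem o (RR_norm z y) (by_contra fun hn => ?_)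
  obtain ⟨a, ha⟩ := h.pt_of_line hz o (RR_norm z y) hg hn
  have i : t * (z⁻¹ * (t * z * t⁻¹)) ^ r ^ a * t⁻¹ = ((z⁻¹ * (t * z * t⁻¹)) ^ r ^ a)⁻¹ := by
    rw [← conj_pow, ← inv_pow]
    congr 1
    calc _ = t * z⁻¹ * t⁻¹ * ((t * t) * z * (t * t)⁻¹) := by group
      _ = _ := by rw [ht]; group
  exact h.not_inv ha (h.comm_of_fix hx ha e (i ▸ inv_mem (mem_zpowers _))) i

theorem At.tw1_split (A : At p r X H x) (hN : IsPGroup r N) (hn : x ∈ NN N) (l : N ≤ H) :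
    IsPGroup r ↥((N ⊔ QV r X H) ⊓ C1 x) ∧ N ≤ ((N ⊔ QV r X H) ⊓ C1 x) ⊔ QV r X H ∧
      (N ⊔ QV r X H) ⊓ C1 x ≤ H ⊓ C1 x := by
  have := Fact.mk A.fs.rp
  refine ⟨(hN.to_sup_of_normal_right' A.pg fun g hg => A.fs.QV_norm (l hg)).to_le inf_le_left,
    fun n m => ?_, inf_le_inf_right _ (sup_le l (QV_le r X H))⟩
  obtain ⟨u, hu, e⟩ := A.decomp' (l m) (Ori.of_mem hN hn (by
    simpa [mul_assoc] using mul_mem (conj_mem_of_mem_normalizer' hn m) (inv_mem m)))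
  have := mul_mem (mem_sup_right (S := (N ⊔ QV r X H) ⊓ C1 x) hu) (mem_sup_left
    (mem_inf.2 ⟨mul_mem (inv_mem (mem_sup_right hu)) (mem_sup_left m), mem_C1.2 e⟩))
  rwa [mul_inv_cancel_left] at this

theorem tw1_NN (h1 : g ∈ NN H) (h2 : g ∈ NN K) : g ∈ NN (H ⊓ K) := by
  rw [mem_normalizer_iff_cj] at *
  rw [cj_inf, h1, h2]

theorem tw1_NN2 (h1 : g ∈ NN H) : g ∈ NN (NN H) := le_normalizer h1

theorem Blk.tw1_s2 (hM : Blk X M) (h : MC p r X) (hx : x ∈ X) (xM : x ∈ M) (D : Subgroup G) :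
    ¬ D ≤ center G → ∀ (N : Subgroup G), IsPGroup r N → x ∈ NN N → ∀ c ∈ C1 x, D ≤ N ⊓ Tech.cj c M →
      ∃ c' ∈ C1 x, N ≤ Tech.cj c' M := by
  have := Fact.mk h.rp
  induction D using WellFoundedGT.induction with
  | _ D ih =>
  intro hD N hN hn c hc l
  have ih' : ∀ D', D < D' → _ := fun D' lt => ih D' lt fun e => hD (lt.le.trans e)
  rcases l.lt_or_eq with lt | rfl
  · exact ih' _ lt N hN hn c hc le_rfl
  have hM' := hM.cj h.toFS c
  have xM' : x ∈ Tech.cj c M := by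
    rw [mem_cj, mul_assoc, ← mem_C1.1 hc, inv_mul_cancel_left]; exact xM
  generalize e : Tech.cj c M = M' at *
  by_cases le : N ≤ M'
  · exact ⟨c, hc, e ▸ le⟩
  have pD : IsPGroup r ↥(N ⊓ M') := hN.to_le inf_le_left
  have nD : x ∈ NN (N ⊓ M') := tw1_NN hn (le_normalizer xM')
  have ne := h.NN_ne pD hD
  have A := h.at ne hx nD
  have lt1 := lt_inf_normalizer_of_lt hN (inf_lt_left.2 le)
  by_cases q : QV r X M' ≤ N ⊓ M'
  · refine (lt1.not_ge (le_inf inf_le_left (inf_le_right.trans (hM'.mx _ ne ?_)))).elim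
    exact fun y hy hy' => (h.at hM'.ne hx xM').pts
      (fun u hu => mul_mem (mul_mem (le_normalizer (q hu)) nD) (inv_mem (le_normalizer (q hu)))) hy hy'
  have pP : IsPGroup r ↥(N ⊓ M' ⊔ QV r X M') :=
    pD.to_sup_of_normal_right' (h.good _ hM'.ne) fun g hg => h.toFS.QV_norm hg.2
  have lt2 := lt_inf_normalizer_of_lt pP (left_lt_sup.2 q)
  obtain ⟨a1, a2, a3⟩ := A.tw1_split (hN.to_le inf_le_left) (tw1_NN hn (tw1_NN2 nD)) inf_le_right
  obtain ⟨b1, b2, b3⟩ := A.tw1_split (pP.to_le inf_le_left)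
    (tw1_NN (blk_sup nD (h.toFS.QV_norm xM')) (tw1_NN2 nD)) inf_le_right
  obtain ⟨T, hT, lT⟩ := exists_isSylowIn_ge b1 b3
  obtain ⟨c1, hc1, l1⟩ := hT.exists_cj_le a1 a3
  obtain ⟨c2, hc2, l2⟩ := ih' _ lt2 (T ⊔ QV r X (NN (N ⊓ M')))
    (hT.pgroup.to_sup_of_normal_right' A.pg fun g hg => h.toFS.QV_norm (hT.le hg).1)
    (blk_sup (mem_normalizer_of_forall fun a ha => by
      rwa [← mem_C1.1 (hT.le ha).2, mul_inv_cancel_right]) (h.toFS.QV_norm nD)) c hc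
    (le_inf (b2.trans (sup_le_sup_right lT _))
      (by rw [e]; exact inf_le_left.trans (sup_le inf_le_right (QV_le r X M'))))
  refine ih' _ lt1 N hN hn (c1⁻¹ * c2) (mul_mem (inv_mem hc1.2) hc2) (le_inf inf_le_left ?_)
  rw [cj_mul, ← cj_le_cj_iff c1, cj_cj_inv]
  refine ((cj_mono c1 a2).trans ?_).trans l2
  rw [cj_sup, mem_normalizer_iff_cj.1 (h.toFS.QV_norm hc1.1)]
  exact sup_le_sup_right l1 _

/-- an invariant `r`-group meeting `Z_M` outside the centre lies in `M` -/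
theorem Blk.e2 (hM : Blk X M) (h : MC p r X) (hx : x ∈ X) (xM : x ∈ M) (hN : IsPGroup r N)
    (hn : x ∈ NN N) (hz : z ∈ ZV r X M) (zN : z ∈ N) (hc : z ∉ center G) : N ≤ M := by
  obtain ⟨c, hc', l⟩ := hM.tw1_s2 h hx xM (zpowers z) (fun e => hc (e (mem_zpowers z))) N hN hn 1
    (one_mem _) (zpowers_le.2 ⟨zN, by rw [cj_one]; exact QV_le r X M (ZV_le r X M hz)⟩)
  rwa [h.o2 (hM.cj h.toFS c) hM hx (by
    rw [mem_cj, mul_assoc, ← mem_C1.1 hc', inv_mul_cancel_left]; exact xM) xM hz (l zN) hc] at l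

end CfsgLib.FsV
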