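import Cfsg.Agent.Lib.FsV.Aff

set_option autoImplicit false
set_option linter.unusedSectionVars false

namespace CfsgLib.FsV

open Subgroup CfsgLib.Tech CfsgLib.FsU

universe u

variable {G : Type u} [Group G] [Finite G] {p r : ℕ} {X : Set G} {H K M M' N : Subgroup G}
  {x y z g t u v : G}

theorem tw2_brQ (A : At p 2 X H y) (hg : g ∈ H) (hu : u ∈ QV 2 X H) : br g u ∈ QV 2 X H :=
  mul_mem (A.fs.QV_conj hg hu) (inv_mem hu)

theorem tw2_brZ (A : At p 2 X H y) (hg : g ∈ H) (hu : u ∈ ZV 2 X H) : br g u ∈ ZV 2 X H :=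
  mul_mem (A.fs.ZV_conj hg hu) (inv_mem hu)

theorem tw2_Zn (hu : u ∈ QV 2 X H) (hv : v ∈ ZV 2 X H) : u * v * u⁻¹ = v := by
  rw [(mem_ZV.1 hv).2 u hu, mul_inv_cancel_right]

theorem At.exists_q (A : At p 2 X H y) (ht : t ∈ H) (h2 : t * t = 1) (hn : t * y ≠ y * t)
    (o : Ori 2 y (t * y * t⁻¹)) :
    ∃ q ∈ QV 2 X H, q ∉ ZV 2 X H ∧ ∃ k, t = q * k ∧ k * y = y * k ∧ k * q = q * k := by
  obtain ⟨e, he, hδ⟩ := A.decomp' ht o
  have he' := QV_le 2 X H he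
  obtain ⟨d, rfl⟩ : ∃ d, t = e * d := ⟨e⁻¹ * t, by group⟩
  rw [inv_mul_cancel_left] at hδ
  have hd : d ∈ H := by simpa using mul_mem (inv_mem he') ht
  let W : Subgroup G :=
    { carrier := {u | u ∈ QV 2 X H ∧ br d u ∈ ZV 2 X H}
      one_mem' := ⟨one_mem _, by simp [br]⟩
      mul_mem' := fun {a b} ha hb => ⟨mul_mem ha.1 hb.1, by
        have := mul_mem ha.2 (A.fs.ZV_conj (QV_le 2 X H ha.1) hb.2)
        convert this using 1
        simp only [br]; group⟩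
      inv_mem' := fun {a} ha => ⟨inv_mem ha.1, by
        have := A.fs.ZV_conj (inv_mem (QV_le 2 X H ha.1)) (inv_mem ha.2)
        convert this using 1
        simp only [br]; group⟩ }
  have yW : y ∈ NN W := mem_normalizer_of_forall fun w hw => ⟨A.fs.QV_conj A.memH hw.1, by
    have := A.fs.ZV_conj A.memH hw.2
    convert this using 1
    calc br d (y * w * y⁻¹) = (d * y) * w * (d * y)⁻¹ * y * w⁻¹ * y⁻¹ := by simp only [br]; group
      _ = _ := by rw [hδ]; simp only [br]; group⟩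
  have e1 : d * d = (d * e * d⁻¹)⁻¹ * e⁻¹ := by
    calc d * d = (d * e * d⁻¹)⁻¹ * e⁻¹ * (e * d * (e * d)) := by group
      _ = _ := by rw [h2, mul_one]
  have dd : d * d ∈ ZV 2 X H := A.mem_Z (e1 ▸ mul_mem (inv_mem (A.fs.QV_conj hd he)) (inv_mem he)) (by
    rw [mul_assoc, hδ, ← mul_assoc, hδ, mul_assoc])
  have eW : e ∈ W := ⟨he, by
    have := mul_mem (inv_mem (A.pow_mem he)) (A.fs.ZV_conj he' (inv_mem dd))
    convert this using 1
    rw [e1]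
    simp only [br, sq]; group⟩
  obtain ⟨w, hw, γ, hγ, e2⟩ := A.surj (W := W) (fun _ h => h.1) (fun ζ hζ => ⟨ZV_le 2 X H hζ, tw2_brZ A hd hζ⟩) yW eW
  have hq : y⁻¹ * w * y * w⁻¹ ∈ QV 2 X H := by
    have := A.fs.QV_conj (inv_mem A.memH) hw.1
    rw [inv_inv] at this
    exact mul_mem this (inv_mem hw.1)
  have cγ := A.comm_of_Z hγ
  have c1 : d * (y⁻¹ * w * y * w⁻¹) * d⁻¹ = y⁻¹ * w * y * w⁻¹ := by
    have c2 := A.comm_of_Z hw.2
    calc _ = (y * d⁻¹)⁻¹ * w * d⁻¹ * (d * y) * w⁻¹ * d⁻¹ := by group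
      _ = y⁻¹ * (br d w * y) * (y⁻¹ * w * y * w⁻¹) * (br d w)⁻¹ := by
        rw [show y * d⁻¹ = d⁻¹ * y by rw [eq_inv_mul_iff_mul_eq, ← mul_assoc, hδ, mul_inv_cancel_right], hδ]
        simp only [br]; group
      _ = _ := by
        rw [c2, inv_mul_cancel_left, ← (mem_ZV.1 hw.2).2 _ hq, mul_inv_cancel_right]
  refine ⟨_, hq, fun h => hn ?_, γ * d, by rw [e2, mul_assoc], by
    rw [mul_assoc, hδ, ← mul_assoc, cγ, mul_assoc], ?_⟩
  · rw [e2, mul_assoc _ d, hδ, ← mul_assoc, mul_assoc _ γ, cγ, ← mul_assoc, A.comm_of_Z h]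
    group
  · have c3 := (mem_ZV.1 hγ).2 _ hq
    generalize y⁻¹ * w * y * w⁻¹ = q at c1 c3 ⊢
    rw [mul_assoc, mul_inv_eq_iff_eq_mul.1 c1, ← mul_assoc, ← c3, mul_assoc]

theorem tw2_claim (A : At p 2 X H y) (an : ∀ u ∈ QV 2 X H, u * u ∈ center G → u ∈ ZV 2 X H) (hg : g ∈ H)
    (o : Ori 2 y (g * y * g⁻¹)) (e : ∀ b ∈ ZV 2 X H, br g b ∈ center G) (hv : v ∈ QV 2 X H) (h : br g (br g v) ∈ ZV 2 X H) :
    br g v ∈ ZV 2 X H := by
  have ha := tw2_brQ A hg hv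
  have s2 : ∀ b ∈ QV 2 X H, br g b ∈ ZV 2 X H → br (br g v) b ∈ center G := fun b hb h1 => by
    have := e _ (A.br_mem hv hb)
    have e1 : g * br v b * g⁻¹ = br (br g v * v) (br g b * b) := by simp only [br]; group
    have e2 : br (br g v * v) (br g b) = 1 := by
      rw [br, (mem_ZV.1 h1).2 _ (mul_mem ha hv), mul_inv_cancel_right, mul_inv_cancel]
    rwa [br, e1, A.br_mul_right (mul_mem ha hv) (ZV_le 2 X H h1) hb, e2, one_mul, A.br_mul_left ha hv hb,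
      mul_inv_cancel_right] at this
  generalize br g v = a at ha h s2 ⊢
  have ha' : y⁻¹ * a * y ∈ QV 2 X H := by simpa using A.fs.QV_conj (inv_mem A.memH) ha
  have hk : (g * y * g⁻¹)⁻¹ * y ∈ QV 2 X H :=
    mem_QV (A.fs.conj y A.mem g) A.mem (mul_mem (mul_mem hg A.memH) (inv_mem hg)) A.memH o.symm
  have h1 : br g (y⁻¹ * a * y) ∈ ZV 2 X H := by
    have h2 : y⁻¹ * br g a * y ∈ ZV 2 X H := by simpa using A.fs.ZV_conj (inv_mem A.memH) h
    have := mul_mem (A.fs.ZV_conj (QV_le 2 X H hk) h2) (A.br_mem hk ha')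
    convert this using 1
    simp only [br]; group
  have h2 := s2 _ ha' h1
  refine A.fpf ha (an _ (mul_mem ha' (inv_mem ha)) ?_)
  have h3 : a * a * y = y * (a * a) := sq a ▸ A.comm_of_Z (A.pow_mem ha)
  have h4 := (inferInstance : (center G).Normal).conj_mem _ h2 a⁻¹
  convert h4 using 1
  calc _ = a⁻¹ * br a (y⁻¹ * a * y) * (y⁻¹ * (a * a * y)) * a⁻¹ := by simp only [br]; group
    _ = _ := by rw [h3]; group

/-- a `2`-element trivial on `Z` modulo the centre is trivial on `Q / Z` -/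
theorem At.triv_of_aniso (A : At p 2 X H y)
    (an : ∀ u ∈ QV 2 X H, u * u ∈ center G → u ∈ ZV 2 X H) (hg : g ∈ H) (h4 : g ^ 4 = 1)
    (o : Ori 2 y (g * y * g⁻¹))
    (e : ∀ b ∈ ZV 2 X H, br g b ∈ center G) (hu : u ∈ QV 2 X H) : br g u ∈ ZV 2 X H := by
  have sq2 : ∀ g ∈ H, ∀ w ∈ QV 2 X H, (w * (g * w * g⁻¹)⁻¹) ^ 2 ∈ ZV 2 X H := fun g hg w hw =>
    A.pow_mem (mul_mem hw (inv_mem (A.fs.QV_conj hg hw)))
  have hs := tw2_brQ A (mul_mem hg hg) hu
  have h1 : br (g * g) (br (g * g) u) ∈ ZV 2 X H := by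
    rw [tw2_brbr, show g * g * (g * g) = g ^ 4 by simp only [pow_succ, pow_zero, one_mul, mul_assoc], h4]
    simpa [br] using sq2 _ (mul_mem hg hg) u hu
  have h2 : br g (br (g * g) u) ∈ ZV 2 X H := tw2_claim A an hg o e hs (by
    rw [tw2_brbr]
    exact mul_mem h1 (sq2 g hg _ hs))
  refine tw2_claim A an hg o e hu (tw2_claim A an hg o e (tw2_brQ A hg hu) ?_)
  rw [tw2_brbr g u]
  have := mul_mem h2 (A.fs.ZV_conj (QV_le 2 X H hs) (tw2_brZ A hg (sq2 g hg u hu)))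
  convert this using 1
  generalize (u * (g * u * g⁻¹)⁻¹) ^ 2 = ζ
  generalize br (g * g) u = s
  simp only [br]; group

theorem At.sq_fix (A : At p 2 X H y) (hg : g ∈ H) (o : Ori 2 y (g * y * g⁻¹))
    (e : ∀ u ∈ QV 2 X H, br g u ∈ ZV 2 X H)
    (hz : z ∈ X) (hz' : z ∈ H) : g * g * z = z * (g * g) := by
  obtain ⟨a, ha, hδ⟩ := A.decomp' hg o
  have c := fun w hw hw' => A.cent_of_triv (y := w) hδ (fun u hu => by
    have := mul_mem (A.fs.ZV_conj (inv_mem (QV_le 2 X H ha)) (e u hu)) (A.br_mem (inv_mem ha) hu)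
    convert this using 1
    simp only [br]; group) hw hw'
  have c1 : QV 2 X H ≤ C1 (a⁻¹ * g) := QV_le_iff.2 fun v hv w hw hv' hw' _ =>
    mul_mem (inv_mem (mem_C1.2 (c v hv hv').symm)) (mem_C1.2 (c w hw hw').symm)
  obtain ⟨d, rfl⟩ : ∃ d, g = a * d := ⟨a⁻¹ * g, by group⟩
  rw [inv_mul_cancel_left] at c c1
  have c2 : Commute a d := mem_C1.1 (c1 ha)
  have c3 : Commute (a ^ 2) z := (A.of_mem hz hz').comm_of_Z (A.pow_mem ha)
  rw [← sq, c2.mul_pow]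
  exact (c3.mul_left (Commute.pow_left (c z hz hz') 2)).eq

/-- an element whose square preserves the orientation preserves or inverts it -/
theorem At.ori_or (A : At p r X H x) (hg : g ∈ H) (o : Ori r x (g * g * x * (g * g)⁻¹)) :
    Ori r x (g * x * g⁻¹) ∨ x * (g * x * g⁻¹) ∈ QV r X H := by
  obtain ⟨a, ha, hd⟩ := A.decomp hg
  obtain ⟨d, rfl⟩ : ∃ d, g = a * d := ⟨a⁻¹ * g, by group⟩
  rw [inv_mul_cancel_left] at hd
  have hd' : d ∈ H := (mul_mem_cancel_left (QV_le r X H ha)).1 hg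
  obtain ⟨k, hk⟩ := mem_powers_iff_mem_zpowers.2 hd
  simp only at hk
  have m : ∀ i : ℕ, (x ^ i)⁻¹ * (a * x ^ i * a⁻¹) ∈ QV r X H := fun i => by
    have := mul_mem (A.fs.QV_conj (inv_mem (H.pow_mem A.memH i)) ha) (inv_mem ha)
    simpa [mul_assoc] using this
  have m2 := mem_QV A.mem (A.fs.conj x A.mem _) A.memH
    (mul_mem (mul_mem (mul_mem hg hg) A.memH) (inv_mem (mul_mem hg hg))) o
  have e1 : x ^ (k * k) = d * (d * x * d⁻¹) * d⁻¹ := by rw [pow_mul, hk, conj_pow, hk]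
  have m3 : x⁻¹ * x ^ (k * k) ∈ QV r X H := by
    have a' := mul_mem ha (A.fs.QV_conj hd' ha)
    have := mul_mem m2 (inv_mem (mul_mem (A.fs.QV_conj (inv_mem (H.pow_mem A.memH (k * k))) a') (inv_mem a')))
    convert this using 1
    rw [e1]
    simp only [mul_inv_rev, inv_inv, mul_assoc, inv_mul_cancel_left, mul_inv_cancel_left]
  have e2 : x ^ (k * k) = x ^ 1 := by
    rw [pow_one]
    exact (inv_mul_eq_one.1 (A.fs.eq_one A.mem (mul_mem (inv_mem (mem_zpowers x))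
      (_root_.pow_mem (mem_zpowers x) _)) (isPGroup_iff_mem.1 A.pg _ m3))).symm
  rw [pow_eq_pow_iff_modEq, A.fs.ord x A.mem] at e2
  have := Fact.mk A.fs.pp
  have e3 : (k : ZMod p) * k = 1 := by simpa using (ZMod.natCast_eq_natCast_iff _ _ _).2 e2
  have e4 : a * d * x * (a * d)⁻¹ = a * x ^ k * a⁻¹ := by rw [hk]; group
  rw [e4]
  rcases mul_self_eq_one_iff.1 e3 with e | e
  · have : x ^ k = x ^ 1 := by
      rw [pow_eq_pow_iff_modEq, A.fs.ord x A.mem, ← ZMod.natCast_eq_natCast_iff, e, Nat.cast_one]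
    rw [this, pow_one]
    exact Or.inl (A.ori_conj ha)
  · have : x ^ (k + 1) = 1 := by
      rw [← orderOf_dvd_iff_pow_eq_one, A.fs.ord x A.mem, ← ZMod.natCast_eq_zero_iff]
      push_cast
      rw [e, neg_add_cancel]
    rw [pow_succ, mul_eq_one_iff_eq_inv] at this
    have k := m k
    rw [this] at k ⊢
    exact Or.inr (by simpa using k)

theorem At.ori_mul (A : At p r X H x) (hg : g ∈ H) (e1 : x * (g * x * g⁻¹) ∈ QV r X H)
    (e2 : x * (u * x * u⁻¹) ∈ QV r X H) : Ori r x (g * u * x * (g * u)⁻¹) := by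
  refine A.ori ?_
  have := mul_mem (A.fs.QV_conj (inv_mem A.memH) (inv_mem e1)) (A.fs.QV_conj hg e2)
  convert this using 1
  group

/-- anisotropy -/
theorem At.an (A : At p 2 X H x) (hu : u ∈ QV 2 X H) (e : u * u = 1) : u ∈ ZV 2 X H := by
  obtain ⟨w, hw, γ, hγ, rfl⟩ := A.surj le_rfl (ZV_le 2 X H) (A.fs.QV_norm A.memH) hu
  have ha : x⁻¹ * w * x * w⁻¹ ∈ QV 2 X H := by simpa using mul_mem hu (inv_mem (ZV_le 2 X H hγ))
  have c : Commute (x⁻¹ * w * x * w⁻¹) γ := (mem_ZV.1 hγ).2 _ ha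
  rw [← sq, c.mul_pow, A.pow_Z hγ, mul_one, sq] at e
  have := A.t2.an rfl x A.mem _ (A.fs.conj x A.mem w) (A.ori_conj hw) (by simpa only [mul_assoc] using e)
  rwa [show x⁻¹ * w * x * w⁻¹ = x⁻¹ * (w * x * w⁻¹) by group, ← this, inv_mul_cancel, one_mul]

theorem At.fpf_pow (A : At p r X H x) {k : ℕ} (hk : ¬ p ∣ k) (hu : u ∈ QV r X H)
    (e : (x ^ k)⁻¹ * u * x ^ k * u⁻¹ ∈ ZV r X H) : u ∈ ZV r X H :=
  (A.of_mem (A.fs.pw x A.mem _ (_root_.pow_mem (mem_zpowers x) k) fun e => hk (by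
    rwa [← orderOf_dvd_iff_pow_eq_one, A.fs.ord x A.mem] at e)) (H.pow_mem A.memH k)).fpf hu e

/-- two conjugates with opposite exponents -/
theorem At.opp (A : At p 2 X H x) (hu : u ∈ QV 2 X H) (hg : g ∈ zpowers x) :
    g * u * g⁻¹ * (g⁻¹ * u * g) * u = u * (g * u * g⁻¹ * (g⁻¹ * u * g)) := by
  have gH : g ∈ H := zpowers_le.2 A.memH hg
  have h1 := A.fs.QV_conj gH hu
  have h2 : g⁻¹ * u * g ∈ QV 2 X H := by simpa using A.fs.QV_conj (inv_mem gH) hu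
  have h3 := A.br_mem h1 hu
  have c : br (g * u * g⁻¹) u * g = g * br (g * u * g⁻¹) u :=
    mem_C1.1 (zpowers_le.2 (mem_C1.2 (A.comm_of_Z h3).symm) hg) |>.symm
  have e : br (g⁻¹ * u * g) u = (br (g * u * g⁻¹) u)⁻¹ := by
    calc _ = (g⁻¹ * (br (g * u * g⁻¹) u * g))⁻¹ := by simp only [br]; group
      _ = _ := by rw [c, inv_mul_cancel_left]
  have := A.br_mul_left h1 h2 hu
  rw [e, mul_inv_cancel, br, mul_inv_eq_one, mul_inv_eq_iff_eq_mul] at this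
  exact this

/-- the place where `p ≠ 3` is used -/
theorem At.p3 (A : At p 2 X H x) (hu : u ∈ QV 2 X H) (hn : u ∉ ZV 2 X H) :
    x * u * x⁻¹ * (x⁻¹ * u * x) ∉ ZV 2 X H ∧ u * (x * u * x⁻¹ * (x⁻¹ * u * x)) ∉ ZV 2 X H := by
  have h1 := A.fs.QV_conj A.memH hu
  have h2 : x⁻¹ * u * x ∈ QV 2 X H := by simpa using A.fs.QV_conj (inv_mem A.memH) hu
  have s := A.pow_mem hu
  refine ⟨fun e => hn (A.fpf_pow (k := 2) (fun d => A.fs.p2
    ((Nat.prime_dvd_prime_iff_eq A.fs.pp Nat.prime_two).1 d)) hu ?_), fun e => hn (A.fpf_pow (k := 3)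
    (fun d => A.t2.p3 rfl ((Nat.prime_dvd_prime_iff_eq A.fs.pp Nat.prime_three).1 d)) hu ?_)⟩
  · have := mul_mem (A.fs.ZV_conj (inv_mem (QV_le 2 X H hu)) (A.fs.ZV_conj (inv_mem A.memH) e)) (inv_mem s)
    convert this using 1
    simp only [sq]; group
  · have z1 := A.fs.ZV_conj (inv_mem A.memH) e
    have z2 := A.fs.ZV_conj (inv_mem A.memH) z1
    have h3 := QV_le 2 X H (A.fs.QV_conj (inv_mem A.memH) h2)
    have := A.fs.ZV_conj (inv_mem (QV_le 2 X H h2)) (mul_mem (A.fs.ZV_conj (inv_mem h3) z2) (inv_mem z1))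
    convert this using 1
    simp only [pow_succ, pow_zero, one_mul, mul_inv_rev, inv_inv, mul_assoc, inv_mul_cancel_left,
      mul_inv_cancel_left, inv_mul_cancel, mul_one]

end CfsgLib.FsV
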