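import Cfsg.Agent.Lib.FsV.Two1
import Cfsg.Agent.Lib.FsV.Two3
import Cfsg.Agent.Lib.FsV.TypeI

set_option autoImplicit false
set_option linter.unusedSectionVars false

namespace CfsgLib.FsV

open Subgroup CfsgLib.Tech CfsgLib.FsU
open scoped commutatorElement

universe u

variable {G : Type u} [Group G] [Finite G] {p r : ℕ} {X : Set G} {H K M M' N : Subgroup G}
  {x y z g t u v : G}

/-- the centralizer modulo the centre -/
def CB (a : G) : Subgroup G := (C1 (QuotientGroup.mk' (center G) a)).comap (QuotientGroup.mk' (center G))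

theorem mem_CB {a b : G} : b ∈ CB a ↔ br a b ∈ center G := by
  rw [CB, mem_comap, mem_C1, tw1_cen]
  simp only [br, map_mul, map_inv]
  rw [mul_inv_eq_one, mul_inv_eq_iff_eq_mul, eq_comm]

theorem CB_symm {a b : G} (h : b ∈ CB a) : a ∈ CB b := mem_C1.2 (mem_C1.1 h).symm

theorem CB_of_comm {a b : G} (h : a * b = b * a) : b ∈ CB a :=
  mem_CB.2 (by rw [o2_br_one h]; exact one_mem _)

/-- central lines -/
def Cen (x y : G) : Prop := ∀ a ∈ RR x y, RR x y ≤ CB a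

theorem Cen.conj (c : Cen x y) (g : G) : Cen (g * x * g⁻¹) (g * y * g⁻¹) := by
  rw [Cen, ← cj_RR]
  rintro _ ⟨a, ha, rfl⟩ _ ⟨b, hb, rfl⟩
  have := tw1_conj (mem_CB.1 (c a ha hb)) g
  refine mem_CB.2 ?_
  convert this using 1
  simp only [br, MulEquiv.coe_toMonoidHom, MulAut.conj_apply]; group

theorem At.Z_le_center (A : At p r X H x) (c : ∀ a ∈ QV r X H, QV r X H ≤ CB a) : ZV r X H ≤ center G :=
  A.Z_le_comm.trans (commutator_le.2 fun a ha _ hb => mem_CB.1 (c a ha hb))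

theorem MC.sim_or (h : MC p 2 X) (hx : x ∈ X) (hy : y ∈ X) (hz : z ∈ X) (e1 : Sim x y)
    (e2 : Sim x z) :
    x⁻¹ * z ∈ CB (x⁻¹ * y) ∨ (∃ H : Subgroup G, H ≠ ⊤ ∧ x ∈ H ∧ y ∈ H ∧ z ∈ H) ∨
      (x⁻¹ * y * (x⁻¹ * y) = x⁻¹ * z * (x⁻¹ * z) ∧ ∃ w ∈ X, x⁻¹ * y * w * (x⁻¹ * y)⁻¹ = w⁻¹) := by
  have fs := h.toFS
  rw [mem_CB]
  by_cases o : Ori 2 y z
  · rw [← or_assoc]
    left
    obtain ⟨A, hz', -⟩ := h.toT2.at_line hy hz o
    have hσ := A.pow_mem (mem_QV hy hz A.memH hz' o)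
    have c1 := A.comm_of_Z hσ
    have c2 := (A.of_mem hz hz').comm_of_Z hσ
    have s2 := A.pow_Z hσ
    have e : (y⁻¹ * z) ^ 2 = (x⁻¹ * y)⁻¹ * (x⁻¹ * z) * ((x⁻¹ * y)⁻¹ * (x⁻¹ * z)) := by rw [sq]; group
    rw [e] at c1 c2 s2
    obtain ⟨c, rfl⟩ : ∃ c, y = x * c := ⟨x⁻¹ * y, by group⟩
    rw [Sim, tw1_cen, map_mul] at e1 e2
    rw [inv_mul_cancel_left] at e1 c1 c2 s2 ⊢
    generalize x⁻¹ * z = c' at e2 c1 c2 s2 ⊢
    obtain ⟨k1, k2⟩ := tw1_a e1 e2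
    by_cases hc : c⁻¹ * c' * (c⁻¹ * c') ∈ center G
    · left
      rw [tw1_cen] at hc ⊢
      simp only [br, map_mul, map_inv] at hc ⊢
      rw [k2, hc]
    · refine Or.inr ⟨C1 _, C1_ne_top hc, mem_C1.2 (fs.comm_of_center hx ?_).symm, mem_C1.2 c1.symm,
        mem_C1.2 c2.symm⟩
      have h1 : c⁻¹ * c' * (c⁻¹ * c') * c⁻¹ * (c⁻¹ * c' * (c⁻¹ * c'))⁻¹ * c ∈ center G := by
        rw [tw1_cen]
        simp only [map_mul, map_inv]
        refine k1 ?_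
        rw [sq] at s2
        simpa only [map_mul, map_inv, map_one] using congrArg (QuotientGroup.mk' (center G)) s2
      generalize c⁻¹ * c' * (c⁻¹ * c') = σ at h1 c1
      have := tw1_conj h1 (x * c)
      convert this using 1
      calc br σ x = σ * (x * c) * c⁻¹ * σ⁻¹ * x⁻¹ := by simp only [br]; group
        _ = _ := by rw [c1]; group
  refine Or.inr (Or.inr ?_)
  obtain ⟨z', hz', -, m', o'⟩ := fs.ex' hy hz
  obtain ⟨A, m, hQ⟩ := h.toT2.at_line hy hz' o'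
  have hg : y⁻¹ * z ∈ RR y z' ⊔ zpowers y := mul_mem (inv_mem A.memH) (zpowers_le.2 m m')
  obtain ⟨a, ha⟩ := fs.pt_of_line hy o' (RR_norm y z') hg fun e => o (Ori.of_mem o' (RR_norm y z') e)
  have hδ := mul_mem e2 (inv_mem e1)
  obtain ⟨b, hb⟩ := isPGroup_iff_mem.1 h.zr _ hδ
  have e : ∀ n : ℕ, x⁻¹ * y * (y⁻¹ * z) ^ n * (x⁻¹ * y)⁻¹ =
      ((y⁻¹ * z) ^ n)⁻¹ * (x⁻¹ * z * (x⁻¹ * z) * (x⁻¹ * y * (x⁻¹ * y))⁻¹) ^ n := fun n => by
    rw [← conj_pow, ← inv_pow, ← Commute.mul_pow (mem_center_iff.1 hδ _)]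
    congr 1
    calc _ = (y⁻¹ * z)⁻¹ * ((x⁻¹ * y)⁻¹ * (x⁻¹ * z * (x⁻¹ * z))) * (x⁻¹ * y)⁻¹ := by group
      _ = _ := by rw [mem_center_iff.1 e2 (x⁻¹ * y)⁻¹]; group
  have hζ : (y⁻¹ * z) ^ p ∈ ZV 2 X (RR y z' ⊔ zpowers y) := by
    refine (A.of_mem ha (pow_mem hg _)).mem_Z ?_ (Commute.pow_pow_self _ _ _).eq
    obtain ⟨n, hn', k, e1⟩ := ba_mem_sup (RR_norm y z') hg
    have h1 := ba_pow ((NN _).pow_mem (RR_norm y z') k) hn' p
    rwa [← pow_mul, mul_comm k p, pow_mul, fs.pow_eq_one hy, one_pow, inv_one, mul_one, ← e1, ← hQ] at h1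
  have e3 := e p
  have c1 := A.comm_of_Z hζ
  have s := A.pow_Z hζ
  rw [sq, mul_eq_one_iff_eq_inv] at s
  rw [← s] at e3
  have hδ' := pow_mem hδ p
  have e4 : (x⁻¹ * z * (x⁻¹ * z) * (x⁻¹ * y * (x⁻¹ * y))⁻¹) ^ p = 1 := by
    generalize (x⁻¹ * z * (x⁻¹ * z) * (x⁻¹ * y * (x⁻¹ * y))⁻¹) ^ p = δ at *
    generalize (y⁻¹ * z) ^ p = ζ at *
    have e5 : x⁻¹ * ζ * x = ζ * δ := by
      rw [← e3]
      calc x⁻¹ * ζ * x = x⁻¹ * (ζ * y) * (x⁻¹ * y)⁻¹ := by group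
        _ = _ := by rw [c1]; group
    have := fs.comm_of_center (v := ζ⁻¹) (fs.pw x hx _ (inv_mem (mem_zpowers x))
      (inv_ne_one.2 (fs.ne_one hx))) (by
        rw [show br ζ⁻¹ x⁻¹ = ζ⁻¹ * (x⁻¹ * ζ * x) by simp only [br]; group, e5, inv_mul_cancel_left]
        exact hδ')
    rw [← mul_inv_rev, ← mul_inv_rev, inv_inj] at this
    rw [mul_assoc, ← this, inv_mul_cancel_left] at e5
    exact (mul_eq_left.1 e5.symm)
  have e5 := ba_eq_one (a := 1) h.pp h.rp h.rne (by rwa [pow_one]) hb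
  refine ⟨(mul_inv_eq_one.1 e5).symm, _, ha, ?_⟩
  rw [e, e5, one_pow, mul_one]

theorem MC.proper_of_br (h : MC p r X) (hx : x ∈ X) (o1 : Ori r x y) (o2 : Ori r x z)
    (key : ∀ i j : ℕ, x ^ j * (x⁻¹ * z) * (x ^ j)⁻¹ ∈ CB (x ^ i * (x⁻¹ * y) * (x ^ i)⁻¹)) :
    ∃ H : Subgroup G, H ≠ ⊤ ∧ x ∈ H ∧ y ∈ H ∧ z ∈ H := by
  have := Fact.mk h.rp
  have n1 : RR x z ≤ NN (RR x y ⊔ center G) := by
    rw [RR, closure_le]
    rintro _ ⟨j, rfl⟩
    refine mem_normalizer_of_cj_le ?_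
    rw [cj_sup, cj_eq_of_normal _ (center G)]
    refine sup_le ?_ le_sup_right
    rw [← cj_le_cj_iff (x ^ j * (x⁻¹ * z) * (x ^ j)⁻¹)⁻¹, cj_inv_cj]
    conv_lhs => rw [RR]
    rw [closure_le]
    rintro _ ⟨i, rfl⟩
    have m : x ^ i * (x⁻¹ * y) * (x ^ i)⁻¹ ∈ RR x y := subset_closure ⟨i, rfl⟩
    have := mul_mem (mem_sup_right (S := RR x y) (inv_mem (mem_CB.1 (key i j)))) (mem_sup_left m)
    rw [SetLike.mem_coe, mem_cj]
    convert this using 1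
    simp only [br]; group
  have pg : IsPGroup r (RR x z ⊔ (RR x y ⊔ center G) : Subgroup G) :=
    IsPGroup.to_sup_of_normal_right' o2 (IsPGroup.to_sup_of_normal_right o1 h.zr) n1
  have hn : x ∈ NN (RR x z ⊔ (RR x y ⊔ center G)) := by
    rw [mem_normalizer_iff_cj, cj_sup, cj_sup, cj_eq_of_normal _ (center G), mem_normalizer_iff_cj.1 (RR_norm x z),
      mem_normalizer_iff_cj.1 (RR_norm x y)]
  have m : x ∈ RR x z ⊔ (RR x y ⊔ center G) ⊔ zpowers x := mem_sup_right (mem_zpowers x)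
  refine ⟨_, h.sup_ne_top hx pg hn, m, ?_, ?_⟩
  · simpa using mul_mem m (mem_sup_left (mem_sup_right (mem_sup_left (mem_RR x y))))
  · simpa using mul_mem m (mem_sup_left (mem_sup_left (mem_RR x z)))

theorem T2.cen_sq (h : T2 p 2 X) (hx : x ∈ X) (hy : y ∈ X) (o : Ori 2 x y) (c : Cen x y)
    (hu : u ∈ RR x y) : u * u ∈ center G := by
  obtain ⟨A, -, hQ⟩ := h.at_line hx hy o
  exact A.Z_le_center (by rwa [hQ]) (sq u ▸ A.pow_mem (by rwa [hQ]))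

/-- two central lines through a point lie in a proper subgroup -/
theorem MC.cen_proper (h : MC p 2 X) (hx : x ∈ X) (hy : y ∈ X) (hz : z ∈ X) (o1 : Ori 2 x y)
    (o2 : Ori 2 x z) (c1 : Cen x y) (c2 : Cen x z) :
    ∃ H : Subgroup G, H ≠ ⊤ ∧ x ∈ H ∧ y ∈ H ∧ z ∈ H := by
  by_contra hcon
  have fs := h.toFS
  have ne : x ≠ z := by
    rintro rfl
    obtain ⟨L, hL, l1, l2⟩ := h.exists_blk_pair hx hy
    exact hcon ⟨L, hL.ne, l1, l2, l1⟩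
  obtain ⟨A, m, hQ⟩ := h.toT2.at_line hx hz o2
  have zc := A.Z_le_center (by rwa [hQ])
  refine hcon (h.proper_of_br hx o1 o2 fun i j => ?_)
  have ma : x ^ i * (x⁻¹ * y) * (x ^ i)⁻¹ ∈ RR x y := subset_closure ⟨i, rfl⟩
  have ea : x ^ i * (x⁻¹ * y) * (x ^ i)⁻¹ = x⁻¹ * (x ^ i * y * (x ^ i)⁻¹) := by group
  rw [ea] at ma ⊢
  have step : ∀ b ∈ QV 2 X (RR x z ⊔ zpowers x), b ∉ CB (x⁻¹ * (x ^ i * y * (x ^ i)⁻¹)) →
      b ∉ ZV 2 X (RR x z ⊔ zpowers x) ∧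
        b * b = x⁻¹ * (x ^ i * y * (x ^ i)⁻¹) * (x⁻¹ * (x ^ i * y * (x ^ i)⁻¹)) := fun b hb hn => by
    have nz : b ∉ ZV 2 X (RR x z ⊔ zpowers x) := fun e => hn (CB_of_comm (mem_center_iff.1 (zc e) _))
    refine ⟨nz, ?_⟩
    obtain ⟨w, hw, γ, hγ, rfl⟩ := A.surj le_rfl (ZV_le 2 X _) (fs.QV_norm A.memH) hb
    have o3 := A.ori_conj hw
    have m3 : x⁻¹ * (w * x * w⁻¹) ∈ RR x z := by
      rw [← hQ]
      simpa [mul_assoc] using mul_mem hb (inv_mem (ZV_le 2 X _ hγ))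
    rw [show x⁻¹ * w * x * w⁻¹ = x⁻¹ * (w * x * w⁻¹) by group] at *
    rcases h.sim_or hx (h.conj y hy (x ^ i)) (h.conj x hx w) (h.toT2.cen_sq hx hy o1 c1 ma)
      (h.toT2.cen_sq hx hz o2 c2 m3) with k | ⟨L, l0, l1, l2, l3⟩ | ⟨k, -⟩
    · exact (hn (mul_mem k (CB_of_comm (mem_center_iff.1 (zc hγ) _)))).elim
    · refine (hcon ⟨L, l0, l1, ?_, ?_⟩).elim
      · simpa [mul_assoc] using mul_mem (mul_mem (inv_mem (pow_mem l1 i)) l2) (pow_mem l1 i)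
      · have e := eq_of_le_of_card_ge (RR_le (RR_norm x z) m3) (h.un rfl x hx z hz x hx _ (h.conj x hx w)
          o2 o3 ne fun e => nz (by rwa [← e, inv_mul_cancel, one_mul])).le
        have := RR_le (le_normalizer l1) (mul_mem (inv_mem l1) l3) (e ▸ mem_RR x z)
        exact (mul_mem_cancel_left (inv_mem l1)).1 this
    · rw [k, ← sq, Commute.mul_pow (mem_center_iff.1 (zc hγ) _), A.pow_Z hγ, mul_one, sq]
  have mb : x ^ j * (x⁻¹ * z) * (x ^ j)⁻¹ ∈ QV 2 X (RR x z ⊔ zpowers x) := by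
    rw [hQ]; exact subset_closure ⟨j, rfl⟩
  generalize x ^ j * (x⁻¹ * z) * (x ^ j)⁻¹ = b at mb
  by_contra hn
  obtain ⟨nz, e⟩ := step b mb hn
  obtain ⟨n1, n2⟩ := A.p3 mb nz
  have c : Commute b (x * b * x⁻¹ * (x⁻¹ * b * x)) := (A.opp mb (mem_zpowers x)).symm
  have mb' : x * b * x⁻¹ * (x⁻¹ * b * x) ∈ QV 2 X (RR x z ⊔ zpowers x) :=
    mul_mem (fs.QV_conj A.memH mb) (by simpa using fs.QV_conj (inv_mem A.memH) mb)
  generalize x * b * x⁻¹ * (x⁻¹ * b * x) = b' at *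
  by_cases k : b' ∈ CB (x⁻¹ * (x ^ i * y * (x ^ i)⁻¹))
  · have := (step _ (mul_mem mb mb') fun e => hn ((mul_mem_cancel_right k).1 e)).2
    rw [← e, ← sq, c.mul_pow, sq, mul_eq_left, sq] at this
    exact n1 (A.an mb' this)
  · refine n2 (A.an (mul_mem mb mb') ?_)
    rw [← sq, c.mul_pow, sq b', (step _ mb' k).2, ← e, ← sq, ← sq, A.pow_Z (A.pow_mem mb)]

theorem Blk.mem_of_proper (hM : Blk X M) (h : MC p 2 X) (hx : x ∈ X) (hy : y ∈ X) (o : Ori 2 x y)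
    (hxM : x ∈ M) (hζ : g ∈ ZV 2 X M) (hc : g ∉ center G) (h1 : H ≠ ⊤) (h2 : x ∈ H) (h3 : y ∈ H)
    (h4 : g * y * g⁻¹ ∈ H) : y ∈ M := by
  have := Fact.mk Nat.prime_two
  have A := h.at hM.ne hx hxM
  have c := A.comm_of_Z hζ
  have s : g * g = 1 := sq g ▸ A.pow_Z hζ
  have i : g⁻¹ = g := inv_eq_of_mul_eq_one_right s
  have c' : g * x * g⁻¹ = x := by rw [c, mul_inv_cancel_right]
  have hK : H ⊓ Tech.cj g H ≠ ⊤ := ne_top_of_le_ne_top h1 inf_le_left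
  have xK : x ∈ H ⊓ Tech.cj g H := ⟨h2, by rw [← c']; exact conj_mem_cj.2 h2⟩
  have yK : y ∈ H ⊓ Tech.cj g H := ⟨h3, mem_cj.2 (by rw [i]; rwa [i] at h4)⟩
  have nK : g ∈ NN (H ⊓ Tech.cj g H) := by
    rw [mem_normalizer_iff_cj, cj_inf, ← cj_mul, s, cj_one, inf_comm]
  have pg : IsPGroup 2 (zpowers g ⊔ QV 2 X (H ⊓ Tech.cj g H) : Subgroup G) :=
    (isPGroup_zpowers_of_pow (k := 1) (by rw [pow_one, sq, s])).to_sup_of_normal_right' (h.good _ hK)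
      (zpowers_le.2 (h.toFS.NN_QV nK))
  have l2 := hM.e2 h hx hxM pg (by
    rw [mem_normalizer_iff_cj, cj_sup, cj_zpowers, ← c, mul_inv_cancel_right,
      mem_normalizer_iff_cj.1 (h.toFS.QV_norm xK)]) hζ (mem_sup_left (mem_zpowers g)) hc
  simpa using mul_mem hxM (l2 (mem_sup_right (mem_QV hx hy xK yK o)))

theorem Blk.cen_mem' (hM : Blk X M) (h : MC p 2 X) (hx : x ∈ X) (hy : y ∈ X) (o : Ori 2 x y)
    (e : Cen x y) (hxM : x ∈ M) (hζ : g ∈ ZV 2 X M) (hc : g ∉ center G) : y ∈ M := by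
  have c' : g * x * g⁻¹ = x := by rw [(h.at hM.ne hx hxM).comm_of_Z hζ, mul_inv_cancel_right]
  obtain ⟨H, h1, h2, h3, h4⟩ := h.cen_proper hx hy (h.conj y hy g) o (by simpa only [c'] using o.conj g) e
    (by simpa only [c'] using e.conj g)
  exact hM.mem_of_proper h hx hy o hxM hζ hc h1 h2 h3 h4

theorem Blk.exists_Z (hM : Blk X M) (h : MC p 2 X) : ∃ z ∈ ZV 2 X M, z ∉ center G := by
  by_contra hn
  have fs := h.toFS
  obtain ⟨x0, hx0, m0⟩ := hM.exists_pt h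
  refine h.not_cent fun x hx y hy o a ha b hb => by_contra fun hc => ?_
  obtain ⟨u, hu⟩ := fs.exists_conj hx0 hx
  rw [← cj_zpowers, mem_cj] at hu
  have m1 : u⁻¹ * x * u⁻¹⁻¹ ∈ M := by rw [inv_inv]; exact zpowers_le.2 m0 hu
  have hx1 := h.conj x hx u⁻¹
  have hy1 := h.conj y hy u⁻¹
  obtain ⟨L, hL, l1, l2⟩ := h.exists_blk_pair hx1 hy1
  have l := fs.RR_le_QV hx1 hy1 l1 l2 (o.conj _)
  rw [← cj_RR] at l
  have z1 := (h.at hL.ne hx1 l1).br_mem (l (conj_mem_cj.2 ha)) (l (conj_mem_cj.2 hb))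
  have z2 : br (u⁻¹ * a * u⁻¹⁻¹) (u⁻¹ * b * u⁻¹⁻¹) ∉ center G := fun e => hc (by
    have := tw1_conj e u
    convert this using 1
    simp only [br]; group)
  have : M = L := hM.eq_of_le hL fun v hv vM => by
    obtain ⟨v', hv', m, m', o'⟩ := fs.ex' hx1 hv
    have l' := fs.RR_le_QV hx1 hv' m1 (zpowers_le.2 vM m) o'
    exact zpowers_le.2 (hL.cen_mem' h hx1 hv' o' (fun a ha b hb => mem_CB.2 (by_contra fun c =>
      hn ⟨_, (h.at hM.ne hx1 m1).br_mem (l' ha) (l' hb), c⟩)) l1 z1 z2) m'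
  exact hn ⟨_, this ▸ z1, z2⟩

theorem Blk.cen_mem (hM : Blk X M) (h : MC p 2 X) (hx : x ∈ X) (hy : y ∈ X) (o : Ori 2 x y)
    (e : Cen x y) (hxM : x ∈ M) : y ∈ M := by
  obtain ⟨ζ, hζ, hc⟩ := hM.exists_Z h
  exact hM.cen_mem' h hx hy o e hxM hζ hc

/-- there are no central lines -/
theorem MC.no_cen (h : MC p 2 X) (hx : x ∈ X) (hy : y ∈ X) (o : Ori 2 x y) (e : Cen x y) : x = y := by
  have fs := h.toFS
  have hN : (sInf {L : Subgroup G | Blk X L}).Normal := ⟨fun n hn g => mem_sInf.2 fun L hL => by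
    have := mem_sInf.1 hn _ (Blk.cj hL fs g⁻¹)
    rwa [mem_cj, inv_inv] at this⟩
  have hc : x⁻¹ * y ∈ sInf {L : Subgroup G | Blk X L} := mem_sInf.2 fun L hL =>
    Blk.mem_of_norm hL h fun v hv vL => by
      obtain ⟨L', hL', xL, vL'⟩ := h.exists_blk_pair hx hv
      have yL := hL'.cen_mem h hx hy o e xL
      have A := h.at hL'.ne hx xL
      have l := fs.RR_le_QV hx hy xL yL o
      have lW : RR x y ⊔ ZV 2 X L' ≤ QV 2 X L' := sup_le l (ZV_le 2 X L')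
      have nQ : QV 2 X L' ≤ NN (RR x y ⊔ ZV 2 X L') := fun u hu => mem_normalizer_of_forall fun a ha => by
        have := mul_mem (mem_sup_right (S := RR x y) (A.br_mem hu (lW ha))) ha
        simpa [br] using this
      have nv : v ∈ NN (RR x y ⊔ ZV 2 X L') := A.pts (fun u hu => mul_mem (mul_mem (nQ hu)
        (blk_sup (RR_norm x y) (fs.ZV_norm xL))) (inv_mem (nQ hu))) hv vL'
      have l2 : RR v (x⁻¹ * y * v * (x⁻¹ * y)⁻¹) ≤ RR x y ⊔ ZV 2 X L' := RR_le nv (by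
        have m : x⁻¹ * y ∈ RR x y ⊔ ZV 2 X L' := mem_sup_left (mem_RR x y)
        simpa only [mul_assoc] using mul_mem (conj_mem_of_mem_normalizer' nv m) (inv_mem m))
      refine Blk.cen_mem hL h hv (h.conj v hv _) ((A.of_mem hv vL').ori_conj (l (mem_RR x y)))
        (fun a ha b hb => ?_) vL
      have k : ∀ b ∈ QV 2 X L', ZV 2 X L' ≤ CB b := fun b hb ζ hζ => CB_of_comm ((mem_ZV.1 hζ).2 b hb)
      exact CB_symm (sup_le (fun a ha => CB_symm (sup_le (e a ha) (k a (l ha)) (l2 hb)))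
        (k b (lW (l2 hb))) (l2 ha))
  rcases h.nc hN with k | k
  · exact h.toT2.eq_of_ab (A := center G) (fun a _ b hb => mem_center_iff.1 hb a) hx
      (le_normalizer_of_normal (mem_top x)) hy o (k hc)
  · obtain ⟨M, hM, -, -⟩ := h.exists_blk_pair hx hx
    exact (hM.ne (top_le_iff.1 (k ▸ sInf_le hM))).elim

end CfsgLib.FsV
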