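import Cfsg.Agent.Lib.FsV.Main0
import Cfsg.Agent.Lib.FsV.Two2

set_option autoImplicit false
set_option linter.unusedSectionVars false

namespace CfsgLib.FsV

open Subgroup CfsgLib.Tech CfsgLib.FsU

universe u

variable {G : Type u} [Group G] [Finite G] {p r : ℕ} {X : Set G} {H K M M' N : Subgroup G}
  {x y z g t u v : G}

theorem tw4_NN (h1 : g * x * g⁻¹ ∈ RR x y ⊔ zpowers x) (h2 : g * y * g⁻¹ ∈ RR x y ⊔ zpowers x) :
    g ∈ NN (RR x y ⊔ zpowers x) := by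
  refine mem_normalizer_of_cj_le ?_
  rw [← cj_le_cj_iff g⁻¹, cj_inv_cj]
  have h1 : x ∈ cj g⁻¹ (RR x y ⊔ zpowers x) := by rwa [mem_cj, inv_inv]
  have h2 : y ∈ cj g⁻¹ (RR x y ⊔ zpowers x) := by rwa [mem_cj, inv_inv]
  exact sup_le (RR_le (le_normalizer h1) (mul_mem (inv_mem h1) h2)) (zpowers_le.2 h1)

/-- no element of `Q_M` inverts a point -/
theorem tw4_ni (hM : Blk X M) (h : MC p 2 X) {c w : G} (hc : c ∈ QV 2 X M) (hw : w ∈ X) :
    c * w * c⁻¹ ≠ w⁻¹ := by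
  intro e
  have fs := h.toFS
  by_cases wM : w ∈ M
  · have := fs.eq_of_ori hw (inv_mem (mem_zpowers w)) (e ▸ (h.at hM.ne hw wM).ori_conj hc)
    exact fs.not_inv (t := 1) hw (by simp) (by simpa using this)
  obtain ⟨t, ht, tc⟩ := hM.exists_Z h
  obtain ⟨x, hx, xM⟩ := hM.exists_pt h
  have A0 := h.at hM.ne hx xM
  have t2 : t * t = 1 := sq t ▸ A0.pow_Z ht
  have o := fs.ao t2 hx (A0.comm_of_Z ht) hw
  have tw : t * w ≠ w * t := fun e => wM (hM.C1_le h ht tc (mem_C1.2 e.symm))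
  have ct : c * t = t * c := (mem_ZV.1 ht).2 c hc
  have m1 : w ∈ RR w (t * w * t⁻¹) ⊔ zpowers w := mem_sup_right (mem_zpowers w)
  have ne : NN (RR w (t * w * t⁻¹) ⊔ zpowers w) ≠ ⊤ := fun e => h.sup_ne_top hw o (RR_norm _ _)
    (h.normal_eq_top (normalizer_eq_top_iff.1 e) hw m1)
  have tH : t ∈ NN (RR w (t * w * t⁻¹) ⊔ zpowers w) := tw4_NN (mem_line _ _) (by
    rwa [show t * (t * w * t⁻¹) * t⁻¹ = t * t * w * (t * t)⁻¹ by group, t2, one_mul, inv_one, mul_one])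
  have cH : c ∈ NN (RR w (t * w * t⁻¹) ⊔ zpowers w) := tw4_NN (e ▸ inv_mem m1) (by
    rw [show c * (t * w * t⁻¹) * c⁻¹ = c * t * w * (c * t)⁻¹ by group, ct,
      show t * c * w * (t * c)⁻¹ = t * (c * w * c⁻¹) * t⁻¹ by group, e, ← conj_inv]
    exact inv_mem (mem_line _ _))
  have A := h.at ne hw (le_normalizer m1)
  generalize NN (RR w (t * w * t⁻¹) ⊔ zpowers w) = H at *
  obtain ⟨L, hL, lL⟩ := h.exists_blk ne
  have zL := A.Z_mono (h.at hL.ne hw (lL w hw A.memH)) lL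
  obtain ⟨q, hq, -, k, rfl, kw, kq⟩ := A.exists_q tH t2 tw o
  have hζ : q⁻¹ * (c * q * c⁻¹) ∈ ZV 2 X H := A.mem_Z (mul_mem (inv_mem hq) (fs.QV_conj cH hq)) (by
    have e1 : q⁻¹ * (c * q * c⁻¹) = k * (c * k * c⁻¹)⁻¹ := by
      calc _ = q⁻¹ * (c * (q * k)) * k⁻¹ * c⁻¹ := by group
        _ = _ := by rw [ct]; group
    have e2 : Commute (c * k * c⁻¹) w⁻¹ := e ▸ (show Commute k w from kw).conj c
    rw [e1]
    exact ((show Commute k w from kw).mul_left (Commute.inv_right_iff.1 e2).inv_left).eq)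
  have key : ∀ g ∈ zpowers w, br (g * q * g⁻¹) (g⁻¹ * q * g) ∈ center G := fun g hg => by
    have gH : g ∈ H := zpowers_le.2 A.memH hg
    have h1 := fs.QV_conj gH hq
    have h2 : g⁻¹ * q * g ∈ QV 2 X H := by simpa using fs.QV_conj (inv_mem gH) hq
    have h3 := A.br_mem h1 h2
    have gk : Commute g k := mem_C1.1 (zpowers_le.2 (mem_C1.2 kw.symm) hg)
    have qk : Commute q k := kq.symm
    have uM : g * q * g⁻¹ * (g⁻¹ * q * g) ∈ M := hM.C1_le h ht tc (mem_C1.2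
      ((show Commute _ q from A.opp hq hg).mul_right
        (((gk.mul_left qk).mul_left gk.inv_left).mul_left ((gk.inv_left.mul_left qk).mul_left gk))).eq)
    have cg : c * g * c⁻¹ = g⁻¹ := by
      obtain ⟨i, rfl⟩ := hg
      rw [← conj_zpow, e, inv_zpow]
    have gz : Commute g (q⁻¹ * (c * q * c⁻¹)) :=
      mem_C1.1 (zpowers_le.2 (mem_C1.2 (A.comm_of_Z hζ).symm) hg)
    have s := A.pow_Z hζ
    have c2 := (mem_ZV.1 hζ).2 _ h1
    have e1 : c * (g * q * g⁻¹ * (g⁻¹ * q * g)) * c⁻¹ = g⁻¹ * q * g * (g * q * g⁻¹) := by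
      obtain ⟨ζ, eζ⟩ : ∃ ζ, c * q * c⁻¹ = q * ζ := ⟨q⁻¹ * (c * q * c⁻¹), by group⟩
      rw [eζ, inv_mul_cancel_left] at gz s c2
      calc _ = c * g * c⁻¹ * (c * q * c⁻¹) * (c * g * c⁻¹)⁻¹ *
          ((c * g * c⁻¹)⁻¹ * (c * q * c⁻¹) * (c * g * c⁻¹)) := by group
        _ = g⁻¹ * q * (ζ * g) * (g * q * (ζ * g⁻¹)) := by rw [cg, eζ]; group
        _ = g⁻¹ * q * g * (ζ * (g * q * g⁻¹ * ζ)) := by rw [← gz.eq, ← gz.inv_left.eq]; group
        _ = _ := by rw [c2, ← mul_assoc ζ, ← sq, s, one_mul]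
    have h4 : br (g * q * g⁻¹) (g⁻¹ * q * g) ∈ QV 2 X M := by
      have := mul_mem (fs.QV_conj uM hc) (inv_mem hc)
      convert this using 1
      calc _ = g * q * g⁻¹ * (g⁻¹ * q * g) * (g⁻¹ * q * g * (g * q * g⁻¹))⁻¹ := by simp only [br]; group
        _ = _ := by rw [← e1]; group
    by_contra n
    exact wM (hL.eq_of_Z hM h (zL h3) (A0.an h4 (sq (br (g * q * g⁻¹) (g⁻¹ * q * g)) ▸ A.pow_Z h3)) n ▸
      lL w hw A.memH)
  have key2 : ∀ a ∈ zpowers w, ∀ b ∈ zpowers w, b * q * b⁻¹ ∈ CB (a * q * a⁻¹) := fun a ha b hb => by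
    obtain ⟨j, hj⟩ := fs.pp.odd_of_ne_two fs.p2
    have hp : (b⁻¹ * a) ^ p = 1 := by
      obtain ⟨i, hi⟩ := mul_mem (inv_mem hb) ha
      rw [← hi, ← zpow_natCast, ← zpow_mul, mul_comm, zpow_mul, zpow_natCast, fs.pow_eq_one hw, one_zpow]
    have e1 : (b⁻¹ * a) ^ (j + 1) * (b⁻¹ * a) ^ (j + 1) = b⁻¹ * a := by
      rw [← pow_add, show j + 1 + (j + 1) = p + 1 by omega, pow_succ, hp, one_mul]
    have := tw1_conj (key _ (pow_mem (mul_mem (inv_mem hb) ha) (j + 1))) (b * (b⁻¹ * a) ^ (j + 1))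
    generalize (b⁻¹ * a) ^ (j + 1) = g at e1 this
    rw [eq_inv_mul_iff_mul_eq] at e1
    rw [mem_CB, ← e1]
    convert this using 1
    simp only [br, mul_inv_rev, inv_inv, mul_assoc, inv_mul_cancel_left, mul_inv_cancel_left]
  have l : RR w (q * k * w * (q * k)⁻¹) ≤ closure {a | ∃ g ∈ zpowers w, a = g * q * g⁻¹} := by
    refine RR_le (mem_normalizer_of_cj_le ?_) ?_
    · rw [← cj_le_cj_iff w⁻¹, cj_inv_cj, closure_le]
      rintro _ ⟨g, hg, rfl⟩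
      rw [SetLike.mem_coe, mem_cj]
      exact subset_closure ⟨w * g, mul_mem (mem_zpowers w) hg, by group⟩
    · have := mul_mem (subset_closure (k := {a | ∃ g ∈ zpowers w, a = g * q * g⁻¹})
        ⟨w⁻¹, inv_mem (mem_zpowers w), rfl⟩) (inv_mem (subset_closure ⟨1, one_mem _, rfl⟩))
      convert this using 1
      rw [mul_assoc q k w, kw]; group
  refine tw (mul_inv_eq_iff_eq_mul.1 (h.no_cen hw (h.conj w hw _) o fun a ha b hb => ?_).symm)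
  refine CB_symm ((closure_le _).2 ?_ (l ha))
  rintro _ ⟨g, hg, rfl⟩
  refine CB_symm ((closure_le _).2 ?_ (l hb))
  rintro _ ⟨g', hg', rfl⟩
  exact key2 g hg g' hg'

theorem MC.sim_proper (h : MC p 2 X) (hx : x ∈ X) (hy : y ∈ X) (hz : z ∈ X) (o1 : Ori 2 x y)
    (o2 : Ori 2 x z) (e1 : Sim x y) (e2 : Sim x z) :
    ∃ H : Subgroup G, H ≠ ⊤ ∧ x ∈ H ∧ y ∈ H ∧ z ∈ H := by
  by_contra hcon
  have px : ∀ i : ℕ, x ^ i * x * (x ^ i)⁻¹ = x := fun i => by group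
  refine hcon (h.proper_of_br hx o1 o2 fun i j => ?_)
  rcases h.sim_or hx (h.conj y hy (x ^ i)) (h.conj z hz (x ^ j)) (by simpa only [px] using e1.conj (x ^ i))
    (by simpa only [px] using e2.conj (x ^ j)) with k | ⟨H, h1, h2, h3, h4⟩ | ⟨-, w, hw, k⟩
  · rw [mem_CB] at k ⊢
    convert k using 2 <;> group
  · refine (hcon ⟨H, h1, h2, ?_, ?_⟩).elim
    · simpa [mul_assoc] using mul_mem (mul_mem (inv_mem (pow_mem h2 i)) h3) (pow_mem h2 i)
    · simpa [mul_assoc] using mul_mem (mul_mem (inv_mem (pow_mem h2 j)) h4) (pow_mem h2 j)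
  · obtain ⟨L, hL, l1, l2⟩ := h.exists_blk_pair hx (h.conj y hy (x ^ i))
    exact (tw4_ni hL h (mem_QV hx (h.conj y hy _) l1 l2 (by simpa only [px] using o1.conj (x ^ i))) hw k).elim

theorem Blk.sim_mem (hM : Blk X M) (h : MC p 2 X) (hx : x ∈ X) (hy : y ∈ X) (o : Ori 2 x y)
    (e : Sim x y) (hxM : x ∈ M) : y ∈ M := by
  obtain ⟨ζ, hζ, hc⟩ := hM.exists_Z h
  have c' : ζ * x * ζ⁻¹ = x := by rw [(h.at hM.ne hx hxM).comm_of_Z hζ, mul_inv_cancel_right]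
  obtain ⟨H, h1, h2, h3, h4⟩ := h.sim_proper hx hy (h.conj y hy ζ) o (by simpa only [c'] using o.conj ζ) e
    (by simpa only [c'] using e.conj ζ)
  exact hM.mem_of_proper h hx hy o hxM hζ hc h1 h2 h3 h4

theorem MC.eq_of_sim (h : MC p 2 X) (hx : x ∈ X) (hy : y ∈ X) (o : Ori 2 x y) (e : Sim x y) : x = y := by
  obtain ⟨M, hM, xM, -⟩ := h.exists_blk_pair hx hx
  obtain ⟨w, hw, wM⟩ := hM.exists_out h
  obtain ⟨M', hM', xM', wM'⟩ := h.exists_blk_pair hx hw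
  refine h.no_cen hx hy o fun a ha b hb => mem_CB.2 (by_contra fun c => ?_)
  have k : ∀ L, Blk X L → x ∈ L → br a b ∈ ZV 2 X L := fun L hL xL => by
    have l := h.toFS.RR_le_QV hx hy xL (hL.sim_mem h hx hy o e xL) o
    exact (h.at hL.ne hx xL).br_mem (l ha) (l hb)
  exact wM (hM.eq_of_Z hM' h (k M hM xM) (k M' hM' xM') c ▸ wM')

theorem Blk.mem_Z_of_sq (hM : Blk X M) (h : MC p 2 X) (hu : u ∈ QV 2 X M) (e : u * u ∈ center G) :
    u ∈ ZV 2 X M := by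
  obtain ⟨x, hx, xM⟩ := hM.exists_pt h
  have A := h.at hM.ne hx xM
  obtain ⟨w, hw, γ, hγ, rfl⟩ := A.surj le_rfl (ZV_le 2 X M) (A.fs.QV_norm xM) hu
  have ha : x⁻¹ * w * x * w⁻¹ ∈ QV 2 X M := by simpa using mul_mem hu (Subgroup.inv_mem _ (ZV_le 2 X M hγ))
  have c : Commute (x⁻¹ * w * x * w⁻¹) γ := (mem_ZV.1 hγ).2 _ ha
  rw [← sq, c.mul_pow, A.pow_Z hγ, mul_one, sq] at e
  have := h.eq_of_sim hx (h.conj x hx w) (A.ori_conj hw) (by simpa only [Sim, mul_assoc] using e)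
  rwa [show x⁻¹ * w * x * w⁻¹ = x⁻¹ * (w * x * w⁻¹) by group, ← this, inv_mul_cancel, one_mul]

theorem MC.two (h : MC p 2 X) : False := by
  have fs := h.toFS
  obtain ⟨x, hx⟩ := h.exists_pt
  obtain ⟨M', hM', xM', -⟩ := h.exists_blk_pair hx hx
  have A' := h.at hM'.ne hx xM'
  obtain ⟨t, ht, tc⟩ := hM'.exists_Z h
  have t2 : t * t = 1 := sq t ▸ A'.pow_Z ht
  obtain ⟨z, hz, zM'⟩ := hM'.exists_out h
  have tz : t * z ≠ z * t := fun e => zM' (hM'.C1_le h ht tc (mem_C1.2 e.symm))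
  have hz' := h.conj z hz t
  have o := fs.ao t2 hx (A'.comm_of_Z ht) hz
  have ns : ¬ Sim z (t * z * t⁻¹) := fun e => tz (mul_inv_eq_iff_eq_mul.1 (h.eq_of_sim hz hz' o e).symm)
  obtain ⟨M, hM, zM, zM2⟩ := h.exists_blk_pair hz hz'
  have A := h.at hM.ne hz zM
  have hσ := A.pow_mem (mem_QV hz hz' zM zM2 o)
  have tM : t ∈ M := hM.C1_le h hσ (by rwa [sq]) (mem_C1.2 (by
    have i : t⁻¹ = t := inv_eq_of_mul_eq_one_right t2
    have s := A.pow_Z hσ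
    rw [sq] at s
    rw [← mul_inv_eq_iff_eq_mul]
    refine Eq.trans ?_ (inv_eq_of_mul_eq_one_right s)
    calc _ = (t * z⁻¹ * (t * z * t⁻¹ * t⁻¹)) ^ 2 := by simp only [sq]; group
      _ = _ := by
        rw [mul_assoc (t * z), ← mul_inv_rev, t2, inv_one, mul_one, ← inv_pow, i]
        congr 1
        rw [mul_inv_rev, mul_inv_rev, mul_inv_rev, i]
        group))
  obtain ⟨q, hq, qZ, qt, oq⟩ : ∃ q ∈ QV 2 X M, q ∉ ZV 2 X M ∧ q ∈ C1 t ∧ Ori 2 x (q * x * q⁻¹) := by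
    obtain ⟨q, hq, qZ, k, e, kz, kq⟩ := A.exists_q tM t2 tz o
    obtain ⟨n1, n2⟩ := A.p3 hq qZ
    have hq' : z * q * z⁻¹ * (z⁻¹ * q * z) ∈ QV 2 X M :=
      mul_mem (fs.QV_conj zM hq) (by simpa using fs.QV_conj (inv_mem zM) hq)
    have zk : Commute z k := kz.symm
    have qk : Commute q k := kq.symm
    have c1 : q ∈ C1 t := mem_C1.2 (e ▸ ((Commute.refl q).mul_right qk).eq)
    have c2 : z * q * z⁻¹ * (z⁻¹ * q * z) ∈ C1 t := mem_C1.2 (e ▸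
      ((show Commute _ q from A.opp hq (mem_zpowers z)).mul_right
        (((zk.mul_left qk).mul_left zk.inv_left).mul_left ((zk.inv_left.mul_left qk).mul_left zk))).eq)
    have k : ∀ a ∈ QV 2 X M, a ∈ C1 t → _ := fun a ha c => A'.ori_or (hM'.C1_le h ht tc c)
      (fs.ao (sq (a * a) ▸ A.pow_Z (sq a ▸ A.pow_mem ha)) hz (A.comm_of_Z (sq a ▸ A.pow_mem ha)) hx)
    rcases k q hq c1 with k1 | k1
    · exact ⟨q, hq, qZ, c1, k1⟩
    rcases k _ hq' c2 with k2 | k2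
    · exact ⟨_, hq', n1, c2, k2⟩
    exact ⟨_, mul_mem hq hq', n2, mul_mem c1 c2, A'.ori_mul (hM'.C1_le h ht tc c1) k1 k2⟩
  have z1 : q * q ∈ ZV 2 X M := sq q ▸ A.pow_mem hq
  have z1c : q * q ∉ center G := fun e => qZ (hM.mem_Z_of_sq h hq e)
  have z2 : q * q * (q * q) = 1 := sq (q * q) ▸ A.pow_Z z1
  have qM' : q ∈ M' := hM'.C1_le h ht tc qt
  have hne : M ≠ M' := fun e => zM' (e ▸ zM)
  have k1 : ∀ β ∈ ZV 2 X M', br (q * q) β ∈ center G → br q β ∈ center G := fun β hβ e => by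
    have βM : β ∈ M := hM.mem_of_br h z1 z1c (o2_br_inv β _ ▸ inv_mem e)
    have m1 := tw2_brZ A' qM' hβ
    have m2 : br q β ∈ QV 2 X M := o2_br_inv q β ▸ inv_mem (tw2_brQ A βM hq)
    by_contra c
    refine hne (hM.eq_of_Z hM' h (hM.mem_Z_of_sq h m2 ?_) m1 c)
    rw [← sq, A'.pow_Z m1]
    exact one_mem _
  have k2 : ∀ g ∈ M', ∀ β ∈ ZV 2 X M', br g (br g β) = br (g * g) β := fun g hg β hβ => by
    rw [tw2_brbr, A'.pow_Z (mul_mem hβ (inv_mem (A'.fs.ZV_conj hg hβ))), mul_one]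
  have k3 : ∀ β ∈ ZV 2 X M', br q β ∈ center G := fun β hβ => by
    have b1 := tw2_brZ A' qM' hβ
    have b2 := tw2_brZ A' qM' b1
    refine k1 β hβ (k2 q qM' β hβ ▸ k1 _ b1 (k2 q qM' _ b1 ▸ k1 _ b2 ?_))
    rw [k2 q qM' β hβ, k2 _ (mul_mem qM' qM') β hβ, z2]
    simp [br]
  refine hne (hM'.eq_of_le hM fun y hy hy' => hM.C1_le h z1 z1c (mem_C1.2 ?_)).symm
  refine (A'.sq_fix qM' oq (fun u hu => A'.triv_of_aniso (fun u hu e => hM'.mem_Z_of_sq h hu e) qM' ?_ oq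
    k3 hu) hy hy').symm
  rw [← z2]
  simp only [pow_succ, pow_zero, one_mul, mul_assoc]

/-- the unoriented `F`-set theorem -/
theorem T2.main (h : T2 p r X) : IsPGroup r (QV r X ⊤) := by
  by_cases hr : r = 2
  · subst hr
    exact main_aux (fun _ _ _ _ M => M.two) _ G X rfl h
  · exact h.main_odd hr

end CfsgLib.FsV
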